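import Mathlib

set_option autoImplicit false

/-! # The number of points of `a² + t a b + b² = 1` over a finite field, and centralizers in `SL₂` -/

namespace Cfsg.Agent.H307.Conic

variable {F : Type*} [Field F] [Fintype F]

open scoped Classical in
/-- number of solutions of `a² + t a b + b² = 1`, `t² ≠ 4` -/
theorem card_conic (t : F) (ht : t ^ 2 ≠ 4) :
    Nat.card {p : F × F // p.1 ^ 2 + t * p.1 * p.2 + p.2 ^ 2 = 1} +
      Nat.card {s : F // s ^ 2 + t * s + 1 = 0} = Fintype.card F + 1 := by
  -- points with `b ≠ 0` correspond to `s` with `s² + t s + 1 ≠ 0`, `2 s + t ≠ 0`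
  let e : {p : F × F // p.1 ^ 2 + t * p.1 * p.2 + p.2 ^ 2 = 1 ∧ p.2 ≠ 0} ≃
      {s : F // s ^ 2 + t * s + 1 ≠ 0 ∧ 2 * s + t ≠ 0} :=
    { toFun := fun p => ⟨(p.1.1 + 1) / p.1.2, by
        obtain ⟨⟨a, b⟩, h, hb⟩ := p
        simp only at h hb ⊢
        have h1 : ((a + 1) / b) ^ 2 + t * ((a + 1) / b) + 1 = (2 * (a + 1) + t * b) / b ^ 2 := by
          field_simp
          linear_combination h
        have h2 : 2 * ((a + 1) / b) + t = (2 * (a + 1) + t * b) / b := by
          field_simp
        have h3 : 2 * (a + 1) + t * b ≠ 0 := by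
          intro h4
          -- then (a+1)² + t (a+1) b + b² = 0 and 2 (a+1) = - t b
          have h5 : (a + 1) ^ 2 + t * (a + 1) * b + b ^ 2 = 2 * (a + 1) + t * b := by
            linear_combination h
          rw [h4] at h5
          -- 4 * h5 : (t b)² - 2 (t b)² + 4 b² = 0
          have h6 : (4 - t ^ 2) * b ^ 2 = 0 := by
            have : 2 * (a + 1) = - (t * b) := by linear_combination h4
            linear_combination 4 * h5 - (2 * (a + 1) - t * b + 2 * t * b) * this
          rcases mul_eq_zero.1 h6 with h7 | h7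
          · exact ht (by linear_combination -h7)
          · exact hb (pow_eq_zero_iff (by norm_num) |>.1 h7)
        rw [h1, h2]
        exact ⟨div_ne_zero h3 (pow_ne_zero 2 hb), div_ne_zero h3 hb⟩⟩
      invFun := fun s => ⟨(-1 + s.1 * ((2 * s.1 + t) / (s.1 ^ 2 + t * s.1 + 1)),
          (2 * s.1 + t) / (s.1 ^ 2 + t * s.1 + 1)), by
        obtain ⟨s, h1, h2⟩ := s
        simp only
        refine ⟨?_, div_ne_zero h2 h1⟩
        have hl : (2 * s + t) / (s ^ 2 + t * s + 1) * (s ^ 2 + t * s + 1) = 2 * s + t :=
          div_mul_cancel₀ _ h1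
        generalize (2 * s + t) / (s ^ 2 + t * s + 1) = l at hl
        linear_combination l * hl⟩
      left_inv := by
        rintro ⟨⟨a, b⟩, h, hb⟩
        simp only at h hb
        have h1 : ((a + 1) / b) ^ 2 + t * ((a + 1) / b) + 1 = (2 * (a + 1) + t * b) / b ^ 2 := by
          field_simp
          linear_combination h
        have h3 : 2 * (a + 1) + t * b ≠ 0 := by
          intro h4
          have h5 : (a + 1) ^ 2 + t * (a + 1) * b + b ^ 2 = 2 * (a + 1) + t * b := by
            linear_combination h
          rw [h4] at h5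
          have h6 : (4 - t ^ 2) * b ^ 2 = 0 := by
            have : 2 * (a + 1) = - (t * b) := by linear_combination h4
            linear_combination 4 * h5 - (2 * (a + 1) - t * b + 2 * t * b) * this
          rcases mul_eq_zero.1 h6 with h7 | h7
          · exact ht (by linear_combination -h7)
          · exact hb (pow_eq_zero_iff (by norm_num) |>.1 h7)
        have h4 : (2 * ((a + 1) / b) + t) / (((a + 1) / b) ^ 2 + t * ((a + 1) / b) + 1) = b := by
          rw [h1]
          have h2 : 2 * ((a + 1) / b) + t = (2 * (a + 1) + t * b) / b := by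
            field_simp
          rw [h2]
          field_simp
        apply Subtype.ext
        simp only [h4]
        refine Prod.ext ?_ rfl
        simp only
        field_simp
        ring
      right_inv := by
        rintro ⟨s, h1, h2⟩
        apply Subtype.ext
        simp only
        have : (-1 + s * ((2 * s + t) / (s ^ 2 + t * s + 1)) + 1) = s * ((2 * s + t) / (s ^ 2 + t * s + 1)) := by ring
        rw [this]
        have h3 : (2 * s + t) / (s ^ 2 + t * s + 1) ≠ 0 := div_ne_zero h2 h1
        exact mul_div_cancel_right₀ s h3 }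
  -- points with `b = 0`
  have hf : Nat.card {p : F × F // p.1 ^ 2 + t * p.1 * p.2 + p.2 ^ 2 = 1} =
      Nat.card {a : F // a ^ 2 = 1} + Nat.card {s : F // s ^ 2 + t * s + 1 ≠ 0 ∧ 2 * s + t ≠ 0} := by
    rw [← Nat.card_congr e]
    let e0 : {p : F × F // p.1 ^ 2 + t * p.1 * p.2 + p.2 ^ 2 = 1 ∧ p.2 = 0} ≃ {a : F // a ^ 2 = 1} :=
      { toFun := fun p => ⟨p.1.1, by
          obtain ⟨⟨a, b⟩, h, hb⟩ := p
          simp only at h hb ⊢
          rw [hb] at h
          linear_combination h⟩
        invFun := fun a => ⟨(a.1, 0), by simpa using a.2, rfl⟩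
        left_inv := by
          rintro ⟨⟨a, b⟩, h, hb⟩
          simp only at hb
          subst hb
          rfl
        right_inv := fun a => rfl }
    rw [← Nat.card_congr e0]
    simp only [Nat.card_eq_fintype_card, Fintype.card_subtype]
    rw [← Finset.card_filter_add_card_filter_not (s := Finset.univ.filter
      (fun p : F × F => p.1 ^ 2 + t * p.1 * p.2 + p.2 ^ 2 = 1)) (fun p => p.2 = 0)]
    simp only [Finset.filter_filter, ne_eq]
  have hg : Nat.card {s : F // s ^ 2 + t * s + 1 ≠ 0 ∧ 2 * s + t ≠ 0} + Nat.card {s : F // s ^ 2 + t * s + 1 = 0} +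
      Nat.card {s : F // 2 * s + t = 0} = Fintype.card F := by
    have hd : ∀ s : F, s ^ 2 + t * s + 1 = 0 → 2 * s + t ≠ 0 := by
      intro s h1 h2
      apply ht
      have h3 : t = - 2 * s := by linear_combination h2
      subst h3
      linear_combination - 4 * h1
    simp only [Nat.card_eq_fintype_card, Fintype.card_subtype]
    rw [← Finset.card_univ, ← Finset.card_filter_add_card_filter_not (s := (Finset.univ : Finset F)) (fun s => 2 * s + t = 0)]
    rw [← Finset.card_filter_add_card_filter_not (s := Finset.univ.filter (fun s : F => ¬ (2 * s + t = 0)))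
      (fun s => s ^ 2 + t * s + 1 = 0)]
    simp only [Finset.filter_filter]
    have h1 : (Finset.univ.filter (fun s : F => ¬ (2 * s + t = 0) ∧ s ^ 2 + t * s + 1 = 0)) =
        Finset.univ.filter (fun s : F => s ^ 2 + t * s + 1 = 0) := by
      ext s
      simp only [Finset.mem_filter, Finset.mem_univ, true_and]
      exact ⟨fun h => h.2, fun h => ⟨hd s h, h⟩⟩
    have h2 : (Finset.univ.filter (fun s : F => ¬ (2 * s + t = 0) ∧ ¬ (s ^ 2 + t * s + 1 = 0))) =
        Finset.univ.filter (fun s : F => s ^ 2 + t * s + 1 ≠ 0 ∧ 2 * s + t ≠ 0) := by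
      ext s
      simp only [Finset.mem_filter, Finset.mem_univ, true_and]
      exact ⟨fun h => ⟨h.2, h.1⟩, fun h => ⟨h.2, h.1⟩⟩
    rw [h1, h2]
    omega
  have h1 : Nat.card {a : F // a ^ 2 = 1} = Nat.card {s : F // 2 * s + t = 0} + 1 := by
    by_cases h2 : (2 : F) = 0
    · have ht0 : t ≠ 0 := by
        intro h
        apply ht
        rw [h]
        have : (4 : F) = 2 * 2 := by norm_num
        rw [this, h2]; ring
      have e1 : IsEmpty {s : F // 2 * s + t = 0} := ⟨fun s => ht0 (by
        have h5 := s.2
        linear_combination h5 - s.1 * h2)⟩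
      rw [Nat.card_of_isEmpty (α := {s : F // 2 * s + t = 0}), zero_add]
      rw [Nat.card_eq_one_iff_unique]
      refine ⟨⟨fun a b => Subtype.ext ?_⟩, ⟨⟨1, by simp⟩⟩⟩
      have ha : (a.1 - b.1) ^ 2 = 0 := by
        have h3 := a.2
        have h4 := b.2
        linear_combination h3 + h4 + (1 - a.1 * b.1) * h2
      exact sub_eq_zero.1 ((pow_eq_zero_iff (by norm_num)).1 ha)
    · have e1 : Nat.card {s : F // 2 * s + t = 0} = 1 := by
        rw [Nat.card_eq_one_iff_unique]
        refine ⟨⟨fun a b => Subtype.ext ?_⟩, ⟨⟨- t / 2, by field_simp; ring⟩⟩⟩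
        have h3 := a.2
        have h4 := b.2
        have : 2 * (a.1 - b.1) = 0 := by linear_combination h3 - h4
        exact sub_eq_zero.1 ((mul_eq_zero.1 this).resolve_left h2)
      rw [e1]
      rw [Nat.card_eq_two_iff]
      refine ⟨⟨1, by simp⟩, ⟨-1, by simp⟩, ?_, ?_⟩
      · intro h
        have := congrArg Subtype.val h
        simp only at this
        apply h2
        linear_combination this
      · ext ⟨a, ha⟩
        simp only [Set.mem_insert_iff, Set.mem_singleton_iff, Set.mem_univ, iff_true, Subtype.mk.injEq]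
        have : (a - 1) * (a + 1) = 0 := by linear_combination ha
        rcases mul_eq_zero.1 this with h | h
        · left; linear_combination h
        · right; linear_combination h
  omega

end Cfsg.Agent.H307.Conic
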