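import Cfsg.Agent.H307.GoodBasic
import Cfsg.Agent.S0044
import Cfsg.Agent.S4034
import Cfsg.Agent.Lib.Cores
import Cfsg.Agent.TwoFusion.FStarControl
import Cfsg.Agent.Involutions.BaerSuzuki
import Cfsg.Agent.OddOrderLocal.NilpotentQuotient

set_option autoImplicit false

/-! # Case I: the group `X` (an involution centralizer) when its centre is a 2-group -/

namespace Cfsg.Agent.H307.Good

open Subgroup

section Basics

variable {G : Type*} [Group G]

theorem card_cen_subtype (H : Subgroup G) (x : H) :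
    Nat.card (cen x) = Nat.card ↥(H ⊓ cen (x : G)) := by
  refine Nat.card_congr ⟨fun y => ⟨(y : H), ⟨(y : H).2, ?_⟩⟩, fun y => ⟨⟨(y : G), y.2.1⟩, ?_⟩,
    fun y => rfl, fun y => rfl⟩
  · have := mem_cen.1 y.2
    exact mem_cen.2 (congrArg Subtype.val this)
  · have := mem_cen.1 y.2.2
    exact mem_cen.2 (Subtype.ext this)

variable [Finite G]

/-- if all nontrivial `q`-elements have a centralizer of order `m`, the full `q`-part of `|G|` divides `m` -/
theorem pow_dvd_of_cen {m q : ℕ} [hq : Fact q.Prime]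
    (h : ∀ y : G, (∃ k : ℕ, orderOf y = q ^ k) → y ≠ 1 → Nat.card (cen y) = m)
    {k : ℕ} (hk : q ^ k ∣ Nat.card G) : q ^ k ∣ m := by
  rcases Nat.eq_zero_or_pos k with rfl | hk0
  · simp
  obtain ⟨Q⟩ := (inferInstance : Nonempty (Sylow q G))
  have hQc := Q.card_eq_multiplicity
  have hle : k ≤ (Nat.card G).factorization q :=
    (hq.out.pow_dvd_iff_le_factorization Nat.card_pos.ne').1 hk
  have hQ1 : 1 < Nat.card Q := by
    rw [hQc]
    exact Nat.one_lt_pow (by omega) hq.out.one_lt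
  have : Nontrivial Q := Finite.one_lt_card_iff_nontrivial.1 hQ1
  have hnt : Nontrivial (Subgroup.center Q) := Q.isPGroup'.center_nontrivial
  obtain ⟨z, hz⟩ := exists_ne (1 : Subgroup.center Q)
  have hz1 : ((z : Q) : G) ≠ 1 := by
    intro h0
    exact hz (Subtype.ext (Subtype.ext h0))
  have hzo : ∃ k : ℕ, orderOf ((z : Q) : G) = q ^ k := by
    obtain ⟨j, hj⟩ := (IsPGroup.iff_orderOf.1 Q.isPGroup') (z : Q)
    exact ⟨j, by rw [Subgroup.orderOf_coe, hj]⟩
  have hQle : (Q : Subgroup G) ≤ cen ((z : Q) : G) := by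
    intro g hg
    have := Subgroup.mem_center_iff.1 z.2 ⟨g, hg⟩
    exact mem_cen.2 (congrArg Subtype.val this)
  have h1 := Subgroup.card_dvd_of_le hQle
  rw [h _ hzo hz1, hQc] at h1
  exact (pow_dvd_pow q hle).trans h1

theorem eq_two_pow {c : ℕ} (hc : c ≠ 0) (h : ∀ q : ℕ, q.Prime → q ≠ 2 → ¬ q ∣ c) : ∃ k, c = 2 ^ k := by
  refine ⟨_, Nat.eq_prime_pow_of_unique_prime_dvd hc ?_⟩
  intro d hd hdc
  by_contra h2
  exact h d hd h2 hdc

theorem odd_of_prime_pow {q k : ℕ} (hq : q.Prime) (h2 : q ≠ 2) : Odd (q ^ k) :=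
  (hq.odd_of_ne_two h2).pow

/-- the quotient `|G| / m` is a power of two -/
theorem exists_index_pow {m : ℕ}
    (h : ∀ y : G, Odd (orderOf y) → y ≠ 1 → Nat.card (cen y) = m) {K : Subgroup G}
    (hK : ∀ q k : ℕ, q.Prime → q ≠ 2 → q ^ k ∣ m → q ^ k ∣ Nat.card K) : ∃ k, K.index = 2 ^ k := by
  refine eq_two_pow Subgroup.index_ne_zero_of_finite ?_
  intro q hq h2 hqi
  have := Fact.mk hq
  set k := (Nat.card G).factorization q with hk
  have h1 : q ^ k ∣ Nat.card G := Nat.ordProj_dvd _ _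
  have h3 : q ^ k ∣ m := pow_dvd_of_cen
    (fun y ⟨j, hj⟩ hy => h y (by rw [hj]; exact odd_of_prime_pow hq h2) hy) h1
  have h4 := hK q k hq h2 h3
  have h5 : q ^ (k + 1) ∣ Nat.card G := by
    rw [← Subgroup.card_mul_index K, pow_succ]
    exact mul_dvd_mul h4 hqi
  have h6 := (hq.pow_dvd_iff_le_factorization Nat.card_pos.ne').1 h5
  omega

end Basics

section CaseOne

variable {X : Type*} [Group X] [Finite X] {m : ℕ}

/-- all 2-regular classes have 2-power size. -/
theorem regular_pow (h1 : ∀ x : X, Odd (orderOf x) → x ≠ 1 → Nat.card (cen x) = m) :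
    S4034.PP 2 X := by
  intro x hx
  have hodd : Odd (orderOf x) := Nat.coprime_two_right.1 hx
  by_cases hx1 : x = 1
  · subst hx1
    refine ⟨0, ?_⟩
    have : (centralizer ({(1 : X)} : Set X)) = ⊤ := by
      rw [eq_top_iff]
      intro g _
      exact mem_cen.2 (by simp)
    rw [this]; simp
  · refine exists_index_pow h1 ?_
    intro q k _ _ hqm
    have := h1 x hodd hx1
    rw [this]
    exact hqm

theorem solvable_one (h1 : ∀ x : X, Odd (orderOf x) → x ≠ 1 → Nat.card (cen x) = m) :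
    Group.IsSolvable X :=
  (regular_pow h1).solvable Nat.prime_two _ rfl

/-- `C(O_2 O_{2'})` for elements of odd order in a solvable group. -/
theorem mem_pPrimeCore_of_centralizes [Group.IsSolvable X] {y : X} (hy : Odd (orderOf y))
    (hV : ∀ v ∈ Cfsg.pCore 2 X, y * v = v * y) (hU : ∀ u ∈ Cfsg.pPrimeCore 2 X, y * u = u * y) :
    y ∈ Cfsg.pPrimeCore 2 X := by
  have : Fact (Nat.Prime 2) := ⟨Nat.prime_two⟩
  have hF := TwoFusion.FStarControl.fitting_le_sup (H := X) 2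
  have hyF : y ∈ Subgroup.centralizer (Cfsg.fittingSubgroup X : Set X) := by
    have hle : Cfsg.pCore 2 X ⊔ (Cfsg.fittingSubgroup X ⊓ Cfsg.pPrimeCore 2 X) ≤ cen y := by
      refine sup_le ?_ ?_
      · intro v hv
        exact mem_cen.2 (hV v hv).symm
      · intro v hv
        exact mem_cen.2 (hU v hv.2).symm
    intro f hf
    exact mem_cen.1 (hle (hF hf))
  have hyF2 := S0044.result hyF
  obtain ⟨a, b, hab, ha, hb⟩ := TwoFusion.FStarControl.exists_fitting_decomp 2 hyF2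
  have hpc : IsPGroup 2 (Cfsg.pCore 2 X) := Lib.Cores.pCore_isPGroup 2
  have h1 : y ^ a = 1 := by
    obtain ⟨k, hk⟩ := IsPGroup.iff_orderOf.1 hpc ⟨y ^ a, ha⟩
    rw [← Subgroup.orderOf_coe] at hk
    have hd : orderOf (y ^ a) ∣ orderOf y := orderOf_dvd_of_mem_zpowers ⟨a, rfl⟩
    have hodd : Odd (orderOf (y ^ a)) := Odd.of_dvd_nat hy hd
    simp only at hk
    rw [hk] at hodd
    rcases Nat.eq_zero_or_pos k with hk0 | hk0
    · rw [hk0, pow_zero] at hk
      exact orderOf_eq_one_iff.1 hk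
    · exfalso
      have : Even (2 ^ k) := (Nat.even_pow.2 ⟨even_two, hk0.ne'⟩)
      exact (Nat.not_even_iff_odd.2 hodd) this
  rw [h1, one_mul] at hab
  rw [hab]
  exact hb.2


theorem odd_orderOf_mul {x y : X} (h : Commute x y) (hx : Odd (orderOf x)) (hy : Odd (orderOf y)) :
    Odd (orderOf (x * y)) :=
  Odd.of_dvd_nat (hx.mul hy) h.orderOf_mul_dvd_mul_orderOf

/-- the odd-order elements of `C`, assumed central in `C` -/
def oddPart (C : Subgroup X) (h : ∀ a ∈ C, Odd (orderOf a) → C ≤ cen a) : Subgroup X where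
  carrier := {a | a ∈ C ∧ Odd (orderOf a)}
  mul_mem' := by
    rintro a b ⟨ha, ha'⟩ ⟨hb, hb'⟩
    have hc : Commute a b := (mem_cen.1 (h a ha ha' hb)).symm
    exact ⟨C.mul_mem ha hb, odd_orderOf_mul hc ha' hb'⟩
  one_mem' := ⟨C.one_mem, by simp⟩
  inv_mem' := by
    rintro a ⟨ha, ha'⟩
    exact ⟨C.inv_mem ha, by rwa [orderOf_inv]⟩

theorem mem_oddPart {C : Subgroup X} {h : ∀ a ∈ C, Odd (orderOf a) → C ≤ cen a} {a : X} :
    a ∈ oddPart C h ↔ a ∈ C ∧ Odd (orderOf a) := Iff.rfl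

theorem oddPart_pow_dvd {C : Subgroup X} (h : ∀ a ∈ C, Odd (orderOf a) → C ≤ cen a)
    {q k : ℕ} (hq : q.Prime) (h2 : q ≠ 2) (hk : q ^ k ∣ Nat.card C) :
    q ^ k ∣ Nat.card (oddPart C h) := by
  have := Fact.mk hq
  obtain ⟨Q⟩ := (inferInstance : Nonempty (Sylow q C))
  have h1 : q ^ k ∣ Nat.card Q := by
    rw [Q.card_eq_multiplicity]
    exact pow_dvd_pow q ((hq.pow_dvd_iff_le_factorization Nat.card_pos.ne').1 hk)
  have h3 : (Q : Subgroup C).map C.subtype ≤ oddPart C h := by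
    rintro _ ⟨a, ha, rfl⟩
    refine ⟨a.2, ?_⟩
    obtain ⟨j, hj⟩ := (IsPGroup.iff_orderOf.1 Q.isPGroup') ⟨a, ha⟩
    have : orderOf (C.subtype a) = q ^ j := by
      rw [← hj, ← Subgroup.orderOf_coe, ← Subgroup.orderOf_coe]; rfl
    rw [this]
    exact odd_of_prime_pow hq h2
  have h4 := Subgroup.card_dvd_of_le h3
  rw [Subgroup.card_map_of_injective C.subtype_injective] at h4
  exact h1.trans h4

theorem odd_card_of_forall {K : Subgroup X} (h : ∀ a ∈ K, Odd (orderOf a)) : Odd (Nat.card K) := by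
  by_contra hne
  rw [Nat.not_odd_iff_even] at hne
  have : Fact (Nat.Prime 2) := ⟨Nat.prime_two⟩
  obtain ⟨a, ha⟩ := exists_prime_orderOf_dvd_card' 2 hne.two_dvd
  have := h a a.2
  rw [Subgroup.orderOf_coe, ha] at this
  exact absurd this (by decide)

/-- A subgroup of odd order which is normalized by the (index two-power) odd subgroup `K` lies in it. -/
theorem le_of_odd_index {K U : Subgroup X} (hU : U.Normal) (hUo : Odd (Nat.card U))
    (hKo : Odd (Nat.card K)) {k : ℕ} (hK : K.index = 2 ^ k) : U ≤ K := by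
  have h1 : Odd (Nat.card ↥(U ⊔ K)) := by
    have : Nat.card ↥(U ⊔ K) ∣ Nat.card U * Nat.card K := by
      have h3 := Subgroup.card_mul_index (U.subgroupOf (U ⊔ K))
      have h4 : (U.subgroupOf (U ⊔ K)).index ∣ Nat.card K := by
        have : (U.subgroupOf (U ⊔ K)).index = U.relIndex K := by
          rw [← Subgroup.relIndex, Subgroup.relIndex_sup_left]
        rw [this]
        exact Subgroup.relIndex_dvd_card U K
      have h5 : Nat.card (U.subgroupOf (U ⊔ K)) = Nat.card U :=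
        Nat.card_congr (Subgroup.subgroupOfEquivOfLe le_sup_left).toEquiv
      rw [← h3, h5]
      exact mul_dvd_mul_left _ h4
    exact Odd.of_dvd_nat (hUo.mul hKo) this
  have h2 : K.relIndex (U ⊔ K) = 1 := by
    have h3 : K.relIndex (U ⊔ K) ∣ 2 ^ k := hK ▸ Subgroup.relIndex_dvd_index_of_le le_sup_right
    have h4 : K.relIndex (U ⊔ K) ∣ Nat.card ↥(U ⊔ K) := Subgroup.relIndex_dvd_card _ _
    have h5 : Nat.Coprime (Nat.card ↥(U ⊔ K)) (2 ^ k) := (Nat.coprime_two_right.2 h1).pow_right k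
    exact Nat.eq_one_of_dvd_coprimes h5 h4 h3
  exact le_sup_left.trans (Subgroup.relIndex_eq_one.1 h2)


/-- In Case I a two-element `x` of `X` whose centralizer has order `m` (and in which the odd elements
are central) forces a normal 2-complement. -/
theorem normal_of_two_element {x : X}
    (h1 : ∀ y : X, Odd (orderOf y) → y ≠ 1 → Nat.card (cen y) = m)
    (hx : ∃ k : ℕ, orderOf x = 2 ^ k) (hxm : Nat.card (cen x) = m)
    (hc : ∀ a ∈ cen x, Odd (orderOf a) → cen x ≤ cen a) :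
    Cfsg.HasNormalPComplement 2 X := by
  have hF2 : Fact (Nat.Prime 2) := ⟨Nat.prime_two⟩
  set K := oddPart (cen x) hc with hK
  have hKo : Odd (Nat.card K) := odd_card_of_forall (fun a ha => ha.2)
  obtain ⟨k, hKi⟩ := exists_index_pow h1 (K := K)
    (fun q k hq h2 hk => oddPart_pow_dvd hc hq h2 (by rw [hxm]; exact hk))
  by_contra hne
  have hKn : ¬ K.Normal := fun hn =>
    hne (OddOrderLocal.NilpotentQuotient.hasNormalPComplement_of_index K hn
      (Nat.coprime_two_left.2 hKo |>.symm |> fun h => by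
        intro h2
        exact absurd (Odd.of_dvd_nat hKo h2) (by decide)) hKi)
  have hsol : Group.IsSolvable X := solvable_one h1
  have hCen : ∀ y ∈ K, y ≠ 1 → cen y = cen x := by
    intro y hy hy1
    have h3 := hc y hy.1 hy.2
    exact (Subgroup.eq_of_le_of_card_ge h3 (by rw [h1 y hy.2 hy1, hxm])).symm
  obtain ⟨y0, hy0, hy01⟩ : ∃ y ∈ K, y ≠ 1 := by
    by_contra hcon
    push Not at hcon
    apply hKn
    have : K = ⊥ := by
      rw [eq_bot_iff]
      intro y hy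
      exact Subgroup.mem_bot.2 (hcon y hy)
    rw [this]
    infer_instance
  have hVn : (Cfsg.pCore 2 X).Normal := Lib.Cores.pCore_normal 2
  have hUn : (Cfsg.pPrimeCore 2 X).Normal := Lib.Cores.pPrimeCore_normal 2
  have hVp : IsPGroup 2 (Cfsg.pCore 2 X) := Lib.Cores.pCore_isPGroup 2
  have hUo : Odd (Nat.card (Cfsg.pPrimeCore 2 X)) :=
    Nat.coprime_two_right.1 (Lib.Cores.pPrimeCore_coprime 2)
  have hUK : Cfsg.pPrimeCore 2 X ≤ K := le_of_odd_index hUn hUo hKo hKi
  have hdisj : ∀ (v : X), v ∈ Cfsg.pCore 2 X → Odd (orderOf v) → v = 1 := by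
    intro v hv hvo
    obtain ⟨j, hj⟩ := (IsPGroup.iff_orderOf.1 hVp) ⟨v, hv⟩
    rw [← Subgroup.orderOf_coe] at hj
    simp only at hj
    rw [hj] at hvo
    rcases Nat.eq_zero_or_pos j with hj0 | hj0
    · rw [hj0, pow_zero] at hj
      exact orderOf_eq_one_iff.1 hj
    · exact absurd (Nat.even_pow.2 ⟨even_two, hj0.ne'⟩) (Nat.not_even_iff_odd.2 hvo)
  have hcomm : ∀ v ∈ Cfsg.pCore 2 X, ∀ u ∈ Cfsg.pPrimeCore 2 X, v * u = u * v := by
    intro v hv u hu
    refine Subgroup.commute_of_normal_of_disjoint _ _ hVn hUn ?_ v u hv hu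
    rw [Subgroup.disjoint_def]
    intro w hw hw'
    exact hdisj w hw (hUK hw').2
  have hVx : ¬ Cfsg.pCore 2 X ≤ cen x := by
    intro hV
    apply hKn
    have : K = Cfsg.pPrimeCore 2 X := by
      refine le_antisymm ?_ hUK
      intro y hy
      refine mem_pPrimeCore_of_centralizes hy.2 ?_ ?_
      · intro v hv
        exact (mem_cen.1 (hc y hy.1 hy.2 (hV hv))).symm
      · intro u hu
        exact (mem_cen.1 (hc y hy.1 hy.2 (hUK hu).1)).symm
    rw [this]
    exact hUn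
  have hxp : IsPGroup 2 (zpowers x) := by
    obtain ⟨j, hj⟩ := hx
    exact IsPGroup.of_card (n := j) (by rw [Nat.card_zpowers, hj])
  have hPp : IsPGroup 2 ↥(Cfsg.pCore 2 X ⊔ zpowers x) := by
    exact hVp.to_sup_of_normal_left hxp
  set T : Subgroup X := (Cfsg.pCore 2 X ⊓ cen x) ⊔ zpowers x with hT
  have hTx : T ≤ cen x := sup_le inf_le_right (by
    rw [Subgroup.zpowers_le]; exact self_mem_cen x)
  have hTP : T ≤ Cfsg.pCore 2 X ⊔ zpowers x := sup_le_sup_right inf_le_left _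
  have hTlt : T < Cfsg.pCore 2 X ⊔ zpowers x := by
    refine lt_of_le_of_ne hTP (fun h => hVx ?_)
    exact le_sup_left.trans (h ▸ hTx)
  obtain ⟨g, hgP, hgT, hgn⟩ :=
    Involutions.BaerSuzuki.exists_mem_normalizer_of_lt hPp hTlt
  have hxT : x ∈ T := le_sup_right (a := Cfsg.pCore 2 X ⊓ cen x) (Subgroup.mem_zpowers x)
  have hgx : g * x * g⁻¹ ∈ cen x := hTx ((Subgroup.mem_normalizer_iff.1 hgn x).1 hxT)
  have hgK : ∀ y ∈ K, g⁻¹ * y * g ∈ K := by
    intro y hy
    have h3 := mem_cen.1 (hc y hy.1 hy.2 hgx)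
    refine ⟨mem_cen.2 ?_, ?_⟩
    · calc g⁻¹ * y * g * x = g⁻¹ * (y * (g * x * g⁻¹)) * g := by group
        _ = g⁻¹ * ((g * x * g⁻¹) * y) * g := by rw [h3]
        _ = x * (g⁻¹ * y * g) := by group
    · have : g⁻¹ * y * g = g⁻¹ * y * (g⁻¹)⁻¹ := by rw [inv_inv]
      rw [this, ← MulAut.conj_apply, MulEquiv.orderOf_eq]
      exact hy.2
  obtain ⟨v, hv, z, hz, rfl⟩ := Subgroup.mem_sup_of_normal_left.1 hgP
  have hzK : ∀ y ∈ K, y * z = z * y := by
    intro y hy
    have h3 : z ∈ cen y := by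
      have h4 : zpowers x ≤ cen y := by
        rw [Subgroup.zpowers_le]
        exact mem_cen_comm.1 hy.1
      exact h4 hz
    exact (mem_cen.1 h3).symm
  have hvK : ∀ y ∈ K, v⁻¹ * y * v ∈ K := by
    intro y hy
    have h3 := hgK y hy
    have h4 := hzK _ h3
    have h5 : v⁻¹ * y * v = (v * z)⁻¹ * y * (v * z) := by
      calc v⁻¹ * y * v = z * ((v * z)⁻¹ * y * (v * z)) * z⁻¹ := by group
        _ = ((v * z)⁻¹ * y * (v * z)) * z * z⁻¹ := by rw [h4]
        _ = (v * z)⁻¹ * y * (v * z) := by group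
    rw [h5]
    exact h3
  have hvc : v * y0 = y0 * v := by
    have h3 : y0⁻¹ * (v⁻¹ * y0 * v) ∈ K := K.mul_mem (K.inv_mem hy0) (hvK y0 hy0)
    have h4 : y0⁻¹ * (v⁻¹ * y0 * v) ∈ Cfsg.pCore 2 X := by
      have : y0⁻¹ * (v⁻¹ * y0 * v) = (y0⁻¹ * v⁻¹ * (y0⁻¹)⁻¹) * v := by group
      rw [this]
      exact (Cfsg.pCore 2 X).mul_mem (hVn.conj_mem _ ((Cfsg.pCore 2 X).inv_mem hv) _) hv
    have h5 := hdisj _ h4 h3.2
    have h6 : v * (y0 * (y0⁻¹ * (v⁻¹ * y0 * v))) = v * (y0 * 1) := by rw [h5]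
    have h7 : v * (y0 * (y0⁻¹ * (v⁻¹ * y0 * v))) = y0 * v := by group
    rw [h7] at h6
    rw [h6]; group
  have hvx : v ∈ cen x := by
    rw [← hCen y0 hy0 hy01]
    exact mem_cen.2 hvc
  exact hgT (T.mul_mem (le_sup_left (a := Cfsg.pCore 2 X ⊓ cen x) ⟨hv, hvx⟩) (le_sup_right (a := Cfsg.pCore 2 X ⊓ cen x) hz))

end CaseOne

end Cfsg.Agent.H307.Good
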