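import Cfsg.Agent.H307.GoodAbs

set_option autoImplicit false

/-! # Case I in the group `G` -/

namespace Cfsg.Agent.H307.Good

open Subgroup

variable {G : Type*} [Group G] [Finite G] {m : ℕ}

theorem coe_mem_cen {H : Subgroup G} {x y : H} : y ∈ cen x ↔ (y : G) ∈ cen (x : G) := by
  rw [mem_cen, mem_cen, Subtype.ext_iff]
  rfl

theorem cen_le_cen_coe {H : Subgroup G} {x y : H} (h : H ⊓ cen (x : G) ≤ cen (y : G)) :
    cen x ≤ cen y := by
  intro a ha
  exact coe_mem_cen.2 (h ⟨a.2, coe_mem_cen.1 ha⟩)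

theorem odd_of_two {t : G} (ht : orderOf t = 2) {w : G} (hw : Odd (orderOf w)) :
    (orderOf t).Coprime (orderOf w) := by
  rw [ht]; exact Nat.coprime_two_left.2 hw

theorem card_cen_odd (h : IsGood G m) {t : G} (ht : orderOf t = 2) (w : ↥(cen t))
    (hw : Odd (orderOf w)) (hn : ¬ cen t ≤ cen (w : G)) : Nat.card (cen w) = m := by
  rw [card_cen_subtype]
  refine h.card_inf ?_ w.2 (odd_of_two ht (by rwa [Subgroup.orderOf_coe])) hn
  intro h0
  rw [h0, orderOf_one] at ht
  exact absurd ht (by decide)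

theorem ne_one_of_orderOf_two {t : G} (ht : orderOf t = 2) : t ≠ 1 := by
  intro h0
  rw [h0, orderOf_one] at ht
  exact absurd ht (by decide)

/-- a two-element with smaller centralizer -/
theorem hnpc_of_two_elem (h : IsGood G m) {t : G} (ht : orderOf t = 2)
    (hZ : ∀ v ∈ cen t, Odd (orderOf v) → cen t ≤ cen v → v = 1)
    {w : G} {k : ℕ} (hw : orderOf w = 2 ^ k) (hw1 : w ≠ 1) (hlt : cen w < cen t) :
    Cfsg.HasNormalPComplement 2 ↥(cen t) := by
  have hwt : w ∈ cen t := hlt.le (self_mem_cen w)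
  have hwm : Nat.card (cen w) = m := h w t hw1 (ne_one_of_orderOf_two ht) hlt
  refine normal_of_two_element (X := ↥(cen t)) (m := m) (x := ⟨w, hwt⟩) ?_ ⟨k, ?_⟩ ?_ ?_
  · intro y hy hy1
    refine card_cen_odd h ht y hy (fun hle => hy1 ?_)
    exact Subtype.ext (hZ y y.2 (by rwa [Subgroup.orderOf_coe]) hle)
  · rw [Subgroup.orderOf_mk, hw]
  · rw [card_cen_subtype]
    change Nat.card ↥(cen t ⊓ cen w) = m
    rw [inf_eq_right.2 hlt.le, hwm]
  · intro a ha hao
    apply cen_le_cen_coe
    refine inf_le_right.trans ?_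
    refine h.central hw1 hwm (coe_mem_cen.1 ha) ?_
    rw [hw]
    rw [← Subgroup.orderOf_coe] at hao
    exact (Nat.coprime_two_left.2 hao).pow_left k

theorem hnpc_of_odd_trivial {X : Type*} [Group X] [Finite X]
    (h : ∀ y : X, Odd (orderOf y) → y = 1) : Cfsg.HasNormalPComplement 2 X := by
  have : Fact (Nat.Prime 2) := ⟨Nat.prime_two⟩
  obtain ⟨k, hk⟩ : ∃ k, Nat.card X = 2 ^ k := by
    refine eq_two_pow Nat.card_pos.ne' ?_
    intro q hq h2 hqd
    have := Fact.mk hq
    obtain ⟨a, ha⟩ := exists_prime_orderOf_dvd_card' q hqd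
    have h1 := h a (by rw [ha]; exact hq.odd_of_ne_two h2)
    rw [h1, orderOf_one] at ha
    exact hq.one_lt.ne ha
  refine OddOrderLocal.NilpotentQuotient.hasNormalPComplement_of_index (⊥ : Subgroup X)
    inferInstance ?_ (k := k) ?_
  · rw [Subgroup.card_bot]; decide
  · rw [Subgroup.index_bot, hk]

/-- In Case I an involution with a square root has a 2-nilpotent centralizer. -/
theorem caseOne (h : IsGood G m) {x : G} (hx4 : orderOf x = 4)
    (hZ : ∀ v ∈ cen (x ^ 2), Odd (orderOf v) → cen (x ^ 2) ≤ cen v → v = 1) :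
    Cfsg.HasNormalPComplement 2 ↥(cen (x ^ 2)) := by
  have hF2 : Fact (Nat.Prime 2) := ⟨Nat.prime_two⟩
  set t := x ^ 2 with ht'
  have ht : orderOf t = 2 := by
    rw [ht', orderOf_pow_of_dvd (by decide) (by rw [hx4]; decide), hx4]
  have ht1 := ne_one_of_orderOf_two ht
  by_contra hne
  -- an odd-order element
  obtain ⟨y0, hy0, hy01⟩ : ∃ y : ↥(cen t), Odd (orderOf y) ∧ y ≠ 1 := by
    by_contra hcon
    push Not at hcon
    exact hne (hnpc_of_odd_trivial hcon)
  have h1 : ∀ y : ↥(cen t), Odd (orderOf y) → y ≠ 1 → Nat.card (cen y) = m := by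
    intro y hy hy1
    refine card_cen_odd h ht y hy (fun hle => hy1 ?_)
    exact Subtype.ext (hZ y y.2 (by rwa [Subgroup.orderOf_coe]) hle)
  -- `cen t` has order different from `m`
  have htm : Nat.card (cen t) ≠ m := by
    intro hm
    have h2 := h1 y0 hy0 hy01
    have h3 : cen y0 = ⊤ := by
      rw [← Subgroup.card_eq_iff_eq_top, h2, hm]
    apply hy01
    refine Subtype.ext (hZ y0 y0.2 (by rwa [Subgroup.orderOf_coe]) ?_)
    intro g hg
    have : (⟨g, hg⟩ : ↥(cen t)) ∈ cen y0 := h3 ▸ Subgroup.mem_top _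
    exact coe_mem_cen.1 this
  have key : ∀ w : G, ∀ k : ℕ, orderOf w = 2 ^ k → w ≠ 1 → cen w ≤ cen t → cen t ≤ cen w := by
    intro w k hw hw1 hle
    by_contra hn
    exact hne (hnpc_of_two_elem h ht hZ hw hw1 (lt_of_le_of_ne hle (fun he => hn he.ge)))
  have hxt : cen t ≤ cen x := by
    refine key x 2 (by rw [hx4]; rfl) ?_ (cen_le_cen_pow x 2)
    intro h0
    rw [h0, orderOf_one] at hx4
    exact absurd hx4 (by decide)
  have hsol : Group.IsSolvable ↥(cen t) := solvable_one h1
  -- the 2-core is central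
  have hVp : IsPGroup 2 (Cfsg.pCore 2 ↥(cen t)) := Lib.Cores.pCore_isPGroup 2
  have hV : ∀ v ∈ Cfsg.pCore 2 ↥(cen t), cen t ≤ cen (v : G) := by
    intro v hv
    by_contra hvn
    have hv1 : (v : G) ≠ 1 := by
      intro h0
      apply hvn
      rw [h0]
      intro g _
      exact mem_cen.2 (by simp)
    obtain ⟨k, hk⟩ := IsPGroup.iff_orderOf.1 hVp ⟨v, hv⟩
    rw [← Subgroup.orderOf_coe, ← Subgroup.orderOf_coe] at hk
    simp only at hk
    rcases Nat.eq_zero_or_pos k with hk0 | hk0
    · rw [hk0, pow_zero] at hk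
      exact hv1 (orderOf_eq_one_iff.1 hk)
    obtain ⟨j, rfl⟩ : ∃ j, k = j + 1 := ⟨k - 1, by omega⟩
    set s := (v : G) ^ (2 ^ j) with hs
    have hs2 : orderOf s = 2 := by
      rw [hs, orderOf_pow_of_dvd (by positivity) (by rw [hk, pow_succ]; exact dvd_mul_right _ _), hk,
        pow_succ]
      exact Nat.mul_div_cancel_left 2 (by positivity)
    have hst : s ∈ cen t := (cen t).pow_mem v.2 _
    by_cases hsc : cen t ≤ cen s
    · have hse : cen t = cen s := h.maximal ht1 htm (ne_one_of_orderOf_two hs2) hsc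
      exact hvn (key v (j + 1) hk hv1 ((cen_le_cen_pow (v : G) (2 ^ j)).trans hse.ge))
    · have hcx : Commute x s := by
        have : s ∈ cen x := hxt hst
        exact (mem_cen.1 this).symm
      have hw2 : (x * s) ^ 2 = t := by
        rw [hcx.mul_pow, ← ht']
        have : s ^ 2 = 1 := by rw [← hs2]; exact pow_orderOf_eq_one s
        rw [this, mul_one]
      have hwo : orderOf (x * s) = 2 ^ 2 := by
        refine orderOf_eq_prime_pow ?_ ?_
        · rw [pow_one, hw2]; exact ht1
        · rw [pow_succ, pow_one, pow_mul, hw2, ← ht]; exact pow_orderOf_eq_one t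
      have hw1 : x * s ≠ 1 := by
        intro h0
        rw [h0, one_pow] at hw2
        exact ht1 hw2.symm
      have hle : cen (x * s) ≤ cen t := by
        conv_rhs => rw [← hw2]
        exact cen_le_cen_pow _ _
      have h3 := key (x * s) 2 hwo hw1 hle
      apply hsc
      intro g hg
      have e1 : Commute g (x * s) := mem_cen.1 (h3 hg)
      have e2 : Commute g x := mem_cen.1 (hxt hg)
      have e3 : Commute g (x⁻¹ * (x * s)) := (e2.inv_right).mul_right e1
      rw [inv_mul_cancel_left] at e3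
      exact mem_cen.2 e3
  -- abelian Hall 2'-subgroup
  obtain ⟨K, hKc, hKo, k, hKi⟩ := (S4034.result (G := ↥(cen t)) Nat.prime_two).1 (by
    intro y hy
    obtain ⟨j, hj⟩ := regular_pow h1 y hy
    exact ⟨j, by rw [S4034.ncard_class, hj]⟩)
  have hKo' : Odd (Nat.card K) := by
    rw [← Nat.not_even_iff_odd]
    intro he
    exact hKo he.two_dvd
  have hUn : (Cfsg.pPrimeCore 2 ↥(cen t)).Normal := Lib.Cores.pPrimeCore_normal 2
  have hUo : Odd (Nat.card (Cfsg.pPrimeCore 2 ↥(cen t))) :=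
    Nat.coprime_two_right.1 (Lib.Cores.pPrimeCore_coprime 2)
  have hUK : Cfsg.pPrimeCore 2 ↥(cen t) ≤ K := le_of_odd_index hUn hUo hKo' hKi
  have hKU : K = Cfsg.pPrimeCore 2 ↥(cen t) := by
    refine le_antisymm ?_ hUK
    intro y hy
    have hyo : Odd (orderOf y) := by
      have h3 := orderOf_dvd_natCard (⟨y, hy⟩ : K)
      rw [← Subgroup.orderOf_coe] at h3
      exact Odd.of_dvd_nat hKo' h3
    refine mem_pPrimeCore_of_centralizes hyo ?_ ?_
    · intro v hv
      have h3 := mem_cen.1 (hV v hv y.2)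
      exact Subtype.ext h3
    · intro u hu
      have h3 := hKc.is_comm.comm ⟨y, hy⟩ ⟨u, hUK hu⟩
      exact congrArg Subtype.val h3
  exact hne (OddOrderLocal.NilpotentQuotient.hasNormalPComplement_of_index K (hKU ▸ hUn) hKo hKi)

/-- In Case I the centralizer of an involution is solvable. -/
theorem solvable_caseOne (h : IsGood G m) {t : G} (ht : orderOf t = 2)
    (hZ : ∀ v ∈ cen t, Odd (orderOf v) → cen t ≤ cen v → v = 1) :
    Group.IsSolvable ↥(cen t) := by
  refine solvable_one (m := m) ?_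
  intro y hy hy1
  refine card_cen_odd h ht y hy (fun hle => hy1 ?_)
  exact Subtype.ext (hZ y y.2 (by rwa [Subgroup.orderOf_coe]) hle)

end Cfsg.Agent.H307.Good
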