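import Cfsg.Agent.H307.GoodAbs
import Cfsg.Agent.H307.PartitionNil
import Cfsg.Agent.S4035
import Cfsg.Agent.S0144
import Cfsg.Agent.Solvable.FpfThompson

set_option autoImplicit false

/-! # Case II: abstract part -/

namespace Cfsg.Agent.H307.Good

open Subgroup

section CaseTwo

variable {X : Type*} [Group X] [Finite X] {m : ℕ}

/-- `x` has prime power order, for the prime `q` -/
def PEl (q : ℕ) (x : X) : Prop := ∃ k : ℕ, orderOf x = q ^ k

theorem hnpc_of_pow {r : ℕ} (hr : r.Prime) (h : ∀ x : X, ∃ j : ℕ, x ^ (r ^ j) ∈ center X) :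
    Cfsg.HasNormalPComplement 2 X := by
  have : Fact r.Prime := ⟨hr⟩
  have : Fact (Nat.Prime 2) := ⟨Nat.prime_two⟩
  have hp : IsPGroup r (X ⧸ center X) := by
    intro y
    obtain ⟨x, rfl⟩ := QuotientGroup.mk_surjective y
    obtain ⟨j, hj⟩ := h x
    exact ⟨j, by rw [← QuotientGroup.mk_pow]; exact (QuotientGroup.eq_one_iff _).2 hj⟩
  have hn : Group.IsNilpotent (X ⧸ center X) := hp.isNilpotent
  have hX : Group.IsNilpotent X := Group.of_quotient_center_nilpotent hn
  exact Solvable.FpfThompson.hasNormalPComplement_of_isNilpotent hX 2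

theorem primary_induction (D C : Subgroup X)
    (h : ∀ g ∈ D, ∀ q k : ℕ, q.Prime → orderOf g = q ^ k → g ∈ C) : D ≤ C := by
  have key : ∀ n : ℕ, n ≠ 0 → ∀ g ∈ D, g ^ n = 1 → g ∈ C := by
    intro n
    induction n using Nat.recOnPosPrimePosCoprime with
    | zero => intro h0; exact absurd rfl h0
    | one => intro _ g _ hg1; rw [pow_one] at hg1; rw [hg1]; exact C.one_mem
    | prime_pow p n hp hn =>
      intro _ g hg hg1
      obtain ⟨k, -, hk⟩ := (Nat.dvd_prime_pow hp).1 (orderOf_dvd_of_pow_eq_one hg1)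
      exact h g hg p k hp hk
    | coprime a b ha hb hab iha ihb =>
      intro _ g hg hg1
      have hbez := Nat.gcd_eq_gcd_ab a b
      rw [Nat.coprime_iff_gcd_eq_one.1 hab] at hbez
      set u := Nat.gcdA a b
      set v := Nat.gcdB a b
      have h1 : g ^ ((b : ℤ) * v) ∈ C := by
        refine iha (by omega) _ (D.zpow_mem hg _) ?_
        rw [← zpow_natCast, ← zpow_mul]
        have : (b : ℤ) * v * a = ((a * b : ℕ) : ℤ) * v := by push_cast; ring
        rw [this, zpow_mul, zpow_natCast, hg1, one_zpow]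
      have h2 : g ^ ((a : ℤ) * u) ∈ C := by
        refine ihb (by omega) _ (D.zpow_mem hg _) ?_
        rw [← zpow_natCast, ← zpow_mul]
        have : (a : ℤ) * u * b = ((a * b : ℕ) : ℤ) * u := by push_cast; ring
        rw [this, zpow_mul, zpow_natCast, hg1, one_zpow]
      have h3 : g = g ^ ((a : ℤ) * u) * g ^ ((b : ℤ) * v) := by
        rw [← zpow_add, ← hbez]; simp
      rw [h3]
      exact C.mul_mem h2 h1
  intro g hg
  exact key (orderOf g) (orderOf_pos g).ne' g hg (pow_orderOf_eq_one g)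

theorem exists_noncentral {s : ℕ} (hs : s.Prime) {w y : X} (hw : Nat.card (cen w) = m)
    (hys : PEl s y) (hyz : y ∉ center X) (hy : Nat.card (cen y) = m) :
    ∃ x ∈ cen w, PEl s x ∧ x ∉ center X := by
  have : Fact s.Prime := ⟨hs⟩
  by_contra hcon
  push Not at hcon
  obtain ⟨Q⟩ := (inferInstance : Nonempty (Sylow s (cen w)))
  set Q' : Subgroup X := (Q : Subgroup (cen w)).map (cen w).subtype with hQ'
  have hQp : IsPGroup s Q' := Q.isPGroup'.map _
  have hQz : Q' ≤ center X := by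
    rintro _ ⟨a, ha, rfl⟩
    by_contra hnc
    apply hnc
    refine hcon _ a.2 ?_
    obtain ⟨j, hj⟩ := (IsPGroup.iff_orderOf.1 Q.isPGroup') ⟨a, ha⟩
    refine ⟨j, ?_⟩
    rw [← hj, ← Subgroup.orderOf_coe, ← Subgroup.orderOf_coe]; rfl
  have hQn : Q'.Normal := by
    refine ⟨fun n hn g => ?_⟩
    have := Subgroup.mem_center_iff.1 (hQz hn) g
    rw [this]
    simpa using hn
  have hyp : IsPGroup s (zpowers y) := by
    obtain ⟨j, hj⟩ := hys
    exact IsPGroup.of_card (n := j) (by rw [Nat.card_zpowers, hj])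
  have hsup : IsPGroup s ↥(Q' ⊔ zpowers y) := hQp.to_sup_of_normal_left hyp
  have hle : Q' ⊔ zpowers y ≤ cen y := by
    refine sup_le (hQz.trans (center_le_cen y)) ?_
    rw [Subgroup.zpowers_le]
    exact self_mem_cen y
  obtain ⟨c, hc⟩ := (IsPGroup.iff_card).1 hsup
  have hcm : s ^ c ∣ Nat.card (cen w) := by
    rw [← hc, hw, ← hy]
    exact Subgroup.card_dvd_of_le hle
  have hQc : Nat.card Q' = s ^ (Nat.card (cen w)).factorization s := by
    rw [hQ', Subgroup.card_map_of_injective (cen w).subtype_injective, Q.card_eq_multiplicity]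
  have hcle : c ≤ (Nat.card (cen w)).factorization s :=
    (hs.pow_dvd_iff_le_factorization Nat.card_pos.ne').1 hcm
  have heq : Q' = Q' ⊔ zpowers y := by
    refine Subgroup.eq_of_le_of_card_ge le_sup_left ?_
    rw [hc, hQc]
    exact Nat.pow_le_pow_right hs.pos hcle
  apply hyz
  apply hQz
  rw [heq]
  exact (le_sup_right : zpowers y ≤ Q' ⊔ zpowers y) (Subgroup.mem_zpowers y)

/-- (p1) and (p2) with a bad prime `r` -/
theorem hnpc_of_bad {r s : ℕ} (hr : r.Prime) (hs : s.Prime) (hrs : r ≠ s)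
    (p1 : ∀ w : X, ∀ q : ℕ, q.Prime → PEl q w → w ∉ center X → Nat.card (cen w) = m)
    (p2 : ∀ w x : X, ∀ q l : ℕ, q.Prime → l.Prime → q ≠ l → (q = r ∨ l = r) → PEl q w → PEl l x →
      w ∉ center X → x ∈ cen w → cen w ≤ cen x)
    (hexr : ∃ w : X, PEl r w ∧ w ∉ center X) (hexs : ∃ w : X, PEl s w ∧ w ∉ center X) :
    Cfsg.HasNormalPComplement 2 X := by
  obtain ⟨w0, hw0, hw0z⟩ := hexr
  obtain ⟨y0, hy0, hy0z⟩ := hexs
  -- noncentral `r`-elements have abelian centralizers
  have hcomm : ∀ D : Subgroup X, (∀ g ∈ D, ∀ q k : ℕ, q.Prime → orderOf g = q ^ k → D ≤ cen g) →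
      ∀ a ∈ D, ∀ b ∈ D, a * b = b * a := by
    intro D hD a ha b hb
    have h1 : D ≤ Subgroup.centralizer (D : Set X) := by
      refine primary_induction D _ ?_
      intro g hg q k hq hk d hd
      exact mem_cen.1 (hD g hg q k hq hk hd)
    exact (h1 hb a ha)
  have hA : ∀ w : X, PEl r w → w ∉ center X → (∀ a ∈ cen w, ∀ b ∈ cen w, a * b = b * a) := by
    intro w hw hwz
    have hwm := p1 w r hr hw hwz
    obtain ⟨x, hx, hxs, hxz⟩ := exists_noncentral hs hwm hy0 hy0z (p1 y0 s hs hy0 hy0z)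
    have hxm := p1 x s hs hxs hxz
    have h1 : cen w ≤ cen x := p2 w x r s hr hs hrs (Or.inl rfl) hw hxs hwz hx
    have h2 : cen w = cen x := Subgroup.eq_of_le_of_card_ge h1 (by rw [hwm, hxm])
    refine hcomm _ ?_
    intro g hg q k hq hk
    by_cases hqr : q = r
    · subst hqr
      rw [h2]
      exact p2 x g s q hs hr (Ne.symm hrs) (Or.inr rfl) hxs ⟨k, hk⟩ hxz (h2 ▸ hg)
    · exact p2 w g r q hr hq (Ne.symm hqr) (Or.inl rfl) hw ⟨k, hk⟩ hwz hg
  have hB : ∀ w : X, ∀ q : ℕ, q.Prime → PEl q w → w ∉ center X →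
      (∀ a ∈ cen w, ∀ b ∈ cen w, a * b = b * a) := by
    intro w q hq hw hwz
    by_cases hqr : q = r
    · subst hqr; exact hA w hw hwz
    · have hwm := p1 w q hq hw hwz
      obtain ⟨x, hx, hxs, hxz⟩ := exists_noncentral hr hwm hw0 hw0z (p1 w0 r hr hw0 hw0z)
      have hxm := p1 x r hr hxs hxz
      have h1 : cen w ≤ cen x := p2 w x q r hq hr hqr (Or.inr rfl) hw hxs hwz hx
      have h2 : cen w = cen x := Subgroup.eq_of_le_of_card_ge h1 (by rw [hwm, hxm])
      rw [h2]
      exact hA x hxs hxz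
  have hC : ∀ g : X, g ∉ center X → (∀ a ∈ cen g, ∀ b ∈ cen g, a * b = b * a) ∧ Nat.card (cen g) = m := by
    intro g hg
    -- a noncentral primary power of `g`
    obtain ⟨w, hwg, q, k, hq, hk, hwz⟩ : ∃ w ∈ zpowers g, ∃ q k : ℕ, q.Prime ∧ orderOf w = q ^ k ∧ w ∉ center X := by
      by_contra hcon
      push Not at hcon
      apply hg
      exact primary_induction (zpowers g) (center X)
        (fun w hw q k hq hk => hcon w hw q k hq hk) (Subgroup.mem_zpowers g)
    have hwab := hB w q hq ⟨k, hk⟩ hwz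
    have hwm := p1 w q hq ⟨k, hk⟩ hwz
    have hgw : cen g ≤ cen w := by
      intro a ha
      have h1 : zpowers g ≤ cen a := by
        rw [Subgroup.zpowers_le]
        exact mem_cen_comm.1 ha
      exact mem_cen_comm.1 (h1 hwg)
    have hgcw : g ∈ cen w := by
      have h1 : zpowers g ≤ cen g := by
        rw [Subgroup.zpowers_le]; exact self_mem_cen g
      exact mem_cen_comm.1 (h1 hwg)
    have hwg' : cen w ≤ cen g := fun a ha => mem_cen.2 (hwab a ha g hgcw)
    have heq : cen g = cen w := le_antisymm hgw hwg'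
    rw [heq]
    exact ⟨hwab, hwm⟩
  obtain ⟨l, hl, h⟩ := exists_prime_of_partition hC
  exact hnpc_of_pow hl h

/-- if all primary elements for primes `≠ r` are central -/
theorem hnpc_of_all_central {r : ℕ} (hr : r.Prime)
    (h : ∀ s : ℕ, s.Prime → s ≠ r → ∀ w : X, PEl s w → w ∈ center X) :
    Cfsg.HasNormalPComplement 2 X := by
  refine hnpc_of_pow hr ?_
  intro x
  refine ⟨(orderOf x).factorization r, ?_⟩
  set n := r ^ (orderOf x).factorization r with hn
  refine primary_induction (zpowers (x ^ n)) (center X) ?_ (Subgroup.mem_zpowers _)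
  intro w hw q k hq hk
  by_cases hqr : q = r
  · have h1 : orderOf w ∣ orderOf (x ^ n) := orderOf_dvd_of_mem_zpowers hw
    have h2 : orderOf (x ^ n) = orderOf x / n := by
      apply orderOf_pow_of_dvd (pow_ne_zero _ hr.ne_zero)
      exact Nat.ordProj_dvd _ _
    rcases Nat.eq_zero_or_pos k with hk0 | hk0
    · rw [hk0, pow_zero] at hk
      rw [orderOf_eq_one_iff.1 hk]
      exact (center X).one_mem
    · exfalso
      have h3 : r ∣ orderOf w := by rw [hk, hqr]; exact dvd_pow_self r hk0.ne'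
      have h4 : r ∣ orderOf x / n := h2 ▸ h3.trans h1
      exact (Nat.Prime.coprime_iff_not_dvd hr).1 (Nat.coprime_ordCompl hr (orderOf_pos x).ne') h4
  · exact h q hq hqr w ⟨k, hk⟩

end CaseTwo

end Cfsg.Agent.H307.Good
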