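import Cfsg.Agent.H307.GoodOne
import Cfsg.Agent.H307.GoodTwo
import Cfsg.Agent.Transfer.TausskyTwoGroup

set_option autoImplicit false

/-! # Case II in the group `G` -/

namespace Cfsg.Agent.H307.Good

open Subgroup

variable {G : Type*} [Group G] [Finite G] {m : ℕ}

theorem mem_center_coe {H : Subgroup G} {x : H} : x ∈ center H ↔ H ≤ cen (x : G) := by
  rw [Subgroup.mem_center_iff]
  constructor
  · intro h g hg
    exact mem_cen.2 (congrArg Subtype.val (h ⟨g, hg⟩))
  · intro h g
    exact Subtype.ext (mem_cen.1 (h g.2))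

theorem p2z (h : IsGood G m) {t z : G} (hz1 : z ≠ 1) (hz : cen z = cen t) {w x : ↥(cen t)}
    (hwz : w ∉ center ↥(cen t)) (c1 : (orderOf z).Coprime (orderOf w))
    (c2 : (orderOf z).Coprime (orderOf x)) (c3 : (orderOf w).Coprime (orderOf x)) (hx : x ∈ cen w) :
    cen w ≤ cen x := by
  have hwc : (w : G) ∈ cen z := hz.ge w.2
  have hcomm : Commute z (w : G) := (mem_cen.1 hwc).symm
  rw [← Subgroup.orderOf_coe] at c1 c3
  rw [← Subgroup.orderOf_coe] at c2 c3
  have h1 := cen_mul hcomm c1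
  have h2 : Nat.card ↥(cen z ⊓ cen (w : G)) = m := by
    refine h.card_inf hz1 hwc c1 (fun hle => hwz ?_)
    exact mem_center_coe.2 (hz.ge.trans hle)
  rw [← h1] at h2
  have hu1 : z * (w : G) ≠ 1 := by
    intro h0
    have : (w : G) = z⁻¹ := eq_inv_of_mul_eq_one_right h0
    rw [this, orderOf_inv, Nat.coprime_self, orderOf_eq_one_iff] at c1
    exact hz1 c1
  have hxu : (x : G) ∈ cen (z * (w : G)) := by
    rw [h1]
    exact ⟨hz.ge x.2, coe_mem_cen.1 hx⟩
  have hco : (orderOf (z * (w : G))).Coprime (orderOf (x : G)) :=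
    Nat.Coprime.coprime_dvd_left hcomm.orderOf_mul_dvd_mul_orderOf (c2.mul_left c3)
  have h3 := h.central hu1 h2 hxu hco
  rw [h1, hz] at h3
  exact cen_le_cen_coe h3

section

variable {t : G}

theorem card_ne (h : IsGood G m) (ht : orderOf t = 2)
    (hne : ¬ Cfsg.HasNormalPComplement 2 ↥(cen t)) : Nat.card (cen t) ≠ m := by
  intro hm
  apply hne
  refine hnpc_of_all_central Nat.prime_two ?_
  intro s hs hs2 w ⟨k, hk⟩
  rw [mem_center_coe]
  by_contra hn
  have hodd : Odd (orderOf w) := by rw [hk]; exact odd_of_prime_pow hs hs2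
  have h1 := card_cen_odd h ht w hodd hn
  have h2 : cen w = ⊤ := by
    rw [← Subgroup.card_eq_iff_eq_top, h1, hm]
  apply hn
  rw [← mem_center_coe, Subgroup.mem_center_iff]
  intro g
  exact mem_cen.1 (h2 ▸ Subgroup.mem_top g)

theorem coprime_pel {q l : ℕ} (hq : q.Prime) (hl : l.Prime) (hql : q ≠ l) {X : Type*} [Group X]
    {w x : X} (hw : PEl q w) (hx : PEl l x) : (orderOf w).Coprime (orderOf x) := by
  obtain ⟨a, ha⟩ := hw
  obtain ⟨b, hb⟩ := hx
  rw [ha, hb]
  exact Nat.Coprime.pow _ _ ((Nat.coprime_primes hq hl).2 hql)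

theorem p1 (h : IsGood G m) (ht : orderOf t = 2) {v : G} {p : ℕ} (hp : p.Prime) (hp2 : p ≠ 2)
    (hv : orderOf v = p) (hvc : cen v = cen t) :
    ∀ w : ↥(cen t), ∀ q : ℕ, q.Prime → PEl q w → w ∉ center ↥(cen t) → Nat.card (cen w) = m := by
  intro w q hq hqw hwz
  by_cases hq2 : q = 2
  · subst hq2
    have hw : (w : G) ∈ cen v := hvc.ge w.2
    rw [card_cen_subtype]
    have key : Nat.card ↥(cen v ⊓ cen (w : G)) = m := by
     refine h.card_inf ?_ hw ?_ ?_
     · intro h0
       rw [h0, orderOf_one] at hv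
       exact hp.one_lt.ne hv
     · obtain ⟨k, hk⟩ := hqw
       rw [← Subgroup.orderOf_coe] at hk
       rw [hk, hv]
       exact Nat.Coprime.pow_right _ ((Nat.coprime_primes hp Nat.prime_two).2 hp2)
     · intro hle
       exact hwz (mem_center_coe.2 (hvc.ge.trans hle))
    rw [hvc] at key
    exact key
  · refine card_cen_odd h ht w ?_ (fun hle => hwz (mem_center_coe.2 hle))
    obtain ⟨k, hk⟩ := hqw
    rw [hk]; exact odd_of_prime_pow hq hq2

/-- primes other than `2, p` -/
theorem central_of_ne (h : IsGood G m) (ht : orderOf t = 2) {v : G} {p : ℕ} (hp : p.Prime) (hp2 : p ≠ 2)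
    (hv : orderOf v = p) (hvc : cen v = cen t)
    (hne : ¬ Cfsg.HasNormalPComplement 2 ↥(cen t)) {r : ℕ} (hr : r.Prime) (hr2 : r ≠ 2) (hrp : r ≠ p)
    (w : ↥(cen t)) (hw : PEl r w) : w ∈ center ↥(cen t) := by
  by_contra hwz
  apply hne
  by_cases hs : ∃ s : ℕ, s.Prime ∧ r ≠ s ∧ ∃ y : ↥(cen t), PEl s y ∧ y ∉ center ↥(cen t)
  · obtain ⟨s, hs, hrs, hy⟩ := hs
    have hv1 : v ≠ 1 := by
      intro h0
      rw [h0, orderOf_one] at hv
      exact hp.one_lt.ne hv
    refine hnpc_of_bad hr hs hrs (p1 h ht hp hp2 hv hvc) ?_ ⟨w, hw, hwz⟩ hy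
    intro w' x q l hq hl hql hor hqw hlx hwz' hx
    by_cases h2 : q ≠ 2 ∧ l ≠ 2
    · have hT : PEl 2 t := ⟨1, by rw [ht, pow_one]⟩
      exact p2z h (ne_one_of_orderOf_two ht) rfl hwz'
        (by
          obtain ⟨a, ha⟩ := hqw
          rw [ht, ha]
          exact Nat.Coprime.pow_right _ ((Nat.coprime_primes Nat.prime_two hq).2 (Ne.symm h2.1)))
        (by
          obtain ⟨a, ha⟩ := hlx
          rw [ht, ha]
          exact Nat.Coprime.pow_right _ ((Nat.coprime_primes Nat.prime_two hl).2 (Ne.symm h2.2)))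
        (coprime_pel hq hl hql hqw hlx) hx
    · have hqp : q ≠ p ∧ l ≠ p := by
        constructor
        · rintro rfl
          rcases hor with h3 | h3
          · exact hrp h3.symm
          · exact h2 ⟨hp2, h3 ▸ hr2⟩
        · rintro rfl
          rcases hor with h3 | h3
          · exact h2 ⟨h3 ▸ hr2, hp2⟩
          · exact hrp h3.symm
      exact p2z h hv1 hvc hwz'
        (by
          obtain ⟨a, ha⟩ := hqw
          rw [hv, ha]
          exact Nat.Coprime.pow_right _ ((Nat.coprime_primes hp hq).2 (Ne.symm hqp.1)))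
        (by
          obtain ⟨a, ha⟩ := hlx
          rw [hv, ha]
          exact Nat.Coprime.pow_right _ ((Nat.coprime_primes hp hl).2 (Ne.symm hqp.2)))
        (coprime_pel hq hl hql hqw hlx) hx
  · push Not at hs
    exact hnpc_of_all_central hr (fun s hs1 hs2 y hy => hs s hs1 (Ne.symm hs2) y hy)

/-- `cen t` is a `{2,p}`-group -/
theorem primes_of_caseTwo (h : IsGood G m) (ht : orderOf t = 2) {v : G} {p : ℕ} (hp : p.Prime) (hp2 : p ≠ 2)
    (hv : orderOf v = p) (hvc : cen v = cen t)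
    (hne : ¬ Cfsg.HasNormalPComplement 2 ↥(cen t)) {q : ℕ} (hq : q.Prime)
    (hqd : q ∣ Nat.card ↥(cen t)) : q = 2 ∨ q = p := by
  by_contra hcon
  push Not at hcon
  have := Fact.mk hq
  obtain ⟨v', hv'⟩ := exists_prime_orderOf_dvd_card' q hqd
  have hz := central_of_ne h ht hp hp2 hv hvc hne hq hcon.1 hcon.2 v' ⟨1, by rw [hv', pow_one]⟩
  rw [mem_center_coe] at hz
  have hv'' : orderOf (v' : G) = q := by rw [Subgroup.orderOf_coe, hv']
  have hv1 : (v' : G) ≠ 1 := by
    intro h0
    rw [h0, orderOf_one] at hv''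
    exact hq.one_lt.ne hv''
  have heq := h.maximal (ne_one_of_orderOf_two ht) (card_ne h ht hne) hv1 hz
  apply hne
  refine hnpc_of_all_central Nat.prime_two ?_
  intro s hs hs2 w hw
  by_cases hsp : s = p
  · refine central_of_ne h ht hq hcon.1 hv'' heq.symm hne hs hs2 ?_ w hw
    rw [hsp]; exact Ne.symm hcon.2
  · exact central_of_ne h ht hp hp2 hv hvc hne hs hs2 hsp w hw

/-- the centre of a Sylow subgroup of `cen t` is central in `cen t` -/
theorem sylow_center (h : IsGood G m) (ht : orderOf t = 2) {v : G} {p : ℕ} (hp : p.Prime) (hp2 : p ≠ 2)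
    (hv : orderOf v = p) (hvc : cen v = cen t)
    (hne : ¬ Cfsg.HasNormalPComplement 2 ↥(cen t)) {l : ℕ} [hl : Fact l.Prime] (hl2 : l = 2 ∨ l = p)
    (S : Sylow l ↥(cen t)) {z : ↥(cen t)} (hzS : z ∈ S) (hz : (S : Subgroup ↥(cen t)) ≤ cen z) :
    z ∈ center ↥(cen t) := by
  by_contra hzz
  have hF2 : Fact (Nat.Prime 2) := ⟨Nat.prime_two⟩
  have hprimes := fun {q : ℕ} (hq : q.Prime) (hqd : q ∣ Nat.card ↥(cen t)) =>
    primes_of_caseTwo h ht hp hp2 hv hvc hne hq hqd
  have hzl : PEl l z := by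
    obtain ⟨j, hj⟩ := (IsPGroup.iff_orderOf.1 S.isPGroup') ⟨z, hzS⟩
    exact ⟨j, by rw [← hj]; exact (Subgroup.orderOf_mk z hzS).symm⟩
  have hzm := p1 h ht hp hp2 hv hvc z l hl.out hzl hzz
  have hSm : l ^ (Nat.card ↥(cen t)).factorization l ∣ m := by
    rw [← hzm, ← S.card_eq_multiplicity]
    exact Subgroup.card_dvd_of_le hz
  -- class sizes of `l`-regular elements are prime to `l`
  have hreg : ∀ x : ↥(cen t), (orderOf x).Coprime l → ¬ l ∣ (ConjClasses.mk x).carrier.ncard := by
    intro x hx hd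
    rw [S4034.ncard_class] at hd
    have hidx := Subgroup.card_mul_index (cen x)
    have hcx : l ^ (Nat.card ↥(cen t)).factorization l ∣ Nat.card (cen x) := by
      by_cases hxz : x ∈ center ↥(cen t)
      · have : cen x = ⊤ := by
          rw [eq_top_iff]
          intro g _
          exact mem_cen.2 (Subgroup.mem_center_iff.1 hxz g)
        rw [this, Subgroup.card_top]
        exact Nat.ordProj_dvd _ _
      · obtain ⟨l', hl', hxl'⟩ : ∃ l' : ℕ, l'.Prime ∧ PEl l' x := by
          -- the other prime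
          have hx1 : orderOf x ≠ 1 := by
            intro h0
            apply hxz
            rw [orderOf_eq_one_iff.1 h0]
            exact (center ↥(cen t)).one_mem
          obtain ⟨l', hl', hd'⟩ := Nat.exists_prime_and_dvd hx1
          refine ⟨l', hl', (orderOf x).primeFactorsList.length,
            Nat.eq_prime_pow_of_unique_prime_dvd (orderOf_pos x).ne' ?_⟩
          intro d hd hdx
          have e1 : ∀ q : ℕ, q.Prime → q ∣ orderOf x → (q = 2 ∨ q = p) ∧ q ≠ l := by
            intro q hq hqx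
            refine ⟨hprimes hq (hqx.trans (orderOf_dvd_natCard x)), ?_⟩
            rintro rfl
            exact (Nat.Prime.coprime_iff_not_dvd hq).1 hx.symm hqx
          have e2 := e1 d hd hdx
          have e3 := e1 l' hl' hd'
          rcases hl2 with hl2 | hl2
          · rcases e2.1 with e4 | e4
            · exact absurd (e4.trans hl2.symm) e2.2
            · rcases e3.1 with e5 | e5
              · exact absurd (e5.trans hl2.symm) e3.2
              · rw [e4, e5]
          · rcases e2.1 with e4 | e4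
            · rcases e3.1 with e5 | e5
              · rw [e4, e5]
              · exact absurd (e5.trans hl2.symm) e3.2
            · exact absurd (e4.trans hl2.symm) e2.2
        rw [p1 h ht hp hp2 hv hvc x l' hl' hxl' hxz]
        exact hSm
    have h5 : l ^ ((Nat.card ↥(cen t)).factorization l + 1) ∣ Nat.card ↥(cen t) := by
      conv_rhs => rw [← hidx]
      rw [pow_succ]
      exact mul_dvd_mul hcx hd
    have h6 := (hl.out.pow_dvd_iff_le_factorization Nat.card_pos.ne').1 h5
    omega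
  obtain ⟨hSn, N, hNn, hNl, hSN, hSN'⟩ := S4035.result hreg S
  apply hne
  have hSc := S.card_eq_multiplicity
  have hidx : N.index = Nat.card S := by
    have hc : IsComplement' (S : Subgroup ↥(cen t)) N :=
      isComplement'_of_disjoint_and_mul_eq_univ (disjoint_iff.2 hSN) (by
        rw [← Subgroup.mul_normal, hSN']
        simp)
    exact hc.index_eq_card
  rcases hl2 with hl2 | hl2
  · subst hl2
    exact OddOrderLocal.NilpotentQuotient.hasNormalPComplement_of_index N hNn hNl (hidx.trans hSc)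
  · subst hl2
    have hSi : ∃ k, (S : Subgroup ↥(cen t)).index = 2 ^ k := by
      refine eq_two_pow Subgroup.index_ne_zero_of_finite ?_
      intro q hq hq2 hqd
      rcases hprimes hq (hqd.trans (Subgroup.index_dvd_card _)) with h3 | h3
      · exact hq2 h3
      · subst h3
        exact S.not_dvd_index hqd
    obtain ⟨k, hk⟩ := hSi
    refine OddOrderLocal.NilpotentQuotient.hasNormalPComplement_of_index _ hSn ?_ hk
    intro h2
    have h3 : 2 ∣ Nat.card S := h2
    rw [hSc] at h3
    exact hp2 ((Nat.prime_dvd_prime_iff_eq Nat.prime_two hp).1 (Nat.prime_two.dvd_of_dvd_pow h3)).symm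

/-- in Case II `cen t` contains a Sylow `l`-subgroup of `G` -/
theorem not_dvd_index (h : IsGood G m) (ht : orderOf t = 2) {v : G} {p : ℕ} (hp : p.Prime) (hp2 : p ≠ 2)
    (hv : orderOf v = p) (hvc : cen v = cen t)
    (hne : ¬ Cfsg.HasNormalPComplement 2 ↥(cen t)) {l : ℕ} [hl : Fact l.Prime] (hl2 : l = 2 ∨ l = p) :
    ¬ l ∣ (cen t).index := by
  intro hd
  have hlX : l ∣ Nat.card ↥(cen t) := by
    rcases hl2 with rfl | rfl
    · rw [← ht, ← Subgroup.orderOf_mk t (self_mem_cen t)]
      exact orderOf_dvd_natCard _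
    · have : v ∈ cen t := hvc.le (self_mem_cen v)
      rw [← hv, ← Subgroup.orderOf_mk v this]
      exact orderOf_dvd_natCard _
  obtain ⟨S⟩ := (inferInstance : Nonempty (Sylow l ↥(cen t)))
  set S' : Subgroup G := (S : Subgroup ↥(cen t)).map (cen t).subtype with hS'
  have hS'p : IsPGroup l S' := S.isPGroup'.map _
  have hS't : S' ≤ cen t := Subgroup.map_subtype_le _
  have hS'c : Nat.card S' = l ^ (Nat.card ↥(cen t)).factorization l := by
    rw [hS', Subgroup.card_map_of_injective (cen t).subtype_injective, S.card_eq_multiplicity]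
  obtain ⟨P, hP⟩ := hS'p.exists_le_sylow
  have hlt : S' < (P : Subgroup G) := by
    refine lt_of_le_of_ne hP (fun he => ?_)
    have h1 : Nat.card S' = Nat.card (P : Subgroup G) := by rw [he]
    have h2 : Nat.card (P : Subgroup G) = l ^ (Nat.card G).factorization l := P.card_eq_multiplicity
    have h3 : l ^ ((Nat.card ↥(cen t)).factorization l + 1) ∣ Nat.card G := by
      rw [← Subgroup.card_mul_index (cen t), pow_succ]
      exact mul_dvd_mul (Nat.ordProj_dvd _ _) hd
    have h4 := (hl.out.pow_dvd_iff_le_factorization Nat.card_pos.ne').1 h3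
    rw [hS'c, h2] at h1
    have h5 := Nat.pow_right_injective hl.out.two_le h1
    omega
  obtain ⟨g, hgP, hgS, hgn⟩ := Involutions.BaerSuzuki.exists_mem_normalizer_of_lt P.isPGroup' hlt
  have hS'1 : S' ≠ ⊥ := by
    intro h0
    rw [h0, Subgroup.card_bot] at hS'c
    have h1 : 1 ≤ (Nat.card ↥(cen t)).factorization l :=
      (hl.out.dvd_iff_one_le_factorization Nat.card_pos.ne').1 hlX
    have h2 : 1 < l ^ (Nat.card ↥(cen t)).factorization l := Nat.one_lt_pow (by omega) hl.out.one_lt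
    omega
  set P1 : Subgroup G := S' ⊔ zpowers g with hP1
  have hP1P : P1 ≤ P := sup_le hP (by rw [Subgroup.zpowers_le]; exact hgP)
  have hP1p : IsPGroup l P1 := P.isPGroup'.to_le hP1P
  have hP1n : P1 ≤ normalizer (S' : Set G) :=
    sup_le Subgroup.le_normalizer (by rw [Subgroup.zpowers_le]; exact hgn)
  -- the centre of `S'`
  let Z : Subgroup G := S' ⊓ Subgroup.centralizer (S' : Set G)
  have hZn : ∀ a ∈ P1, ∀ s ∈ Z, a * s * a⁻¹ ∈ Z := by
    intro a ha s hs
    have han := hP1n ha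
    refine ⟨(Subgroup.mem_normalizer_iff.1 han s).1 hs.1, ?_⟩
    intro b hb
    have hb' : a⁻¹ * b * a ∈ S' := by
      have := (Subgroup.mem_normalizer_iff.1 ((normalizer (S' : Set G)).inv_mem han) b).1 hb
      simpa using this
    have hcm : a⁻¹ * b * a * s = s * (a⁻¹ * b * a) := hs.2 _ hb'
    calc b * (a * s * a⁻¹) = a * (a⁻¹ * b * a * s) * a⁻¹ := by group
      _ = a * (s * (a⁻¹ * b * a)) * a⁻¹ := by rw [hcm]
      _ = a * s * a⁻¹ * b := by group
  have hZ1 : Z ≠ ⊥ := by
    have hnt : Nontrivial S' := (Subgroup.nontrivial_iff_ne_bot S').2 hS'1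
    have := hS'p.center_nontrivial
    obtain ⟨z, hz⟩ := exists_ne (1 : Subgroup.center S')
    intro h0
    apply hz
    have hzZ : ((z : S') : G) ∈ Z := by
      refine ⟨(z : S').2, ?_⟩
      intro b hb
      exact congrArg Subtype.val (Subgroup.mem_center_iff.1 z.2 ⟨b, hb⟩)
    rw [h0, Subgroup.mem_bot] at hzZ
    exact Subtype.ext (Subtype.ext hzZ)
  have hZP1 : Z ≤ P1 := inf_le_left.trans le_sup_left
  have hNn : (Z.subgroupOf P1).Normal := ⟨fun s hs a => by
    rw [Subgroup.mem_subgroupOf] at hs ⊢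
    exact hZn a a.2 s hs⟩
  have hN1 : Z.subgroupOf P1 ≠ ⊥ := by
    intro h0
    apply hZ1
    rw [Subgroup.subgroupOf_eq_bot] at h0
    exact eq_bot_iff.2 (fun x hx => h0.le_bot ⟨hx, hZP1 hx⟩)
  obtain ⟨z, hzZ, hzc, hz1⟩ := Transfer.TausskyTwoGroup.exists_ne_one_mem_inf_center hP1p _ hN1
  have hzZ' : (z : G) ∈ Z := hzZ
  have hzt : (z : G) ∈ cen t := hS't hzZ'.1
  have hzS : (⟨(z : G), hzt⟩ : ↥(cen t)) ∈ S := by
    obtain ⟨y, hy, hyz⟩ := hzZ'.1
    have : (⟨(z : G), hzt⟩ : ↥(cen t)) = y := Subtype.ext hyz.symm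
    rw [this]; exact hy
  have hzcen := sylow_center h ht hp hp2 hv hvc hne hl2 S hzS (by
    intro s hs
    refine coe_mem_cen.2 (mem_cen.2 ?_)
    exact hzZ'.2 _ ⟨s, hs, rfl⟩)
  rw [mem_center_coe] at hzcen
  have hz1' : (z : G) ≠ 1 := fun h0 => hz1 (Subtype.ext h0)
  have heq := h.maximal (ne_one_of_orderOf_two ht) (card_ne h ht hne) hz1' hzcen
  have hgt : g ∈ cen t := by
    rw [heq]
    have hgP1 : g ∈ P1 := (le_sup_right : zpowers g ≤ P1) (Subgroup.mem_zpowers g)
    exact mem_cen.2 (congrArg Subtype.val (Subgroup.mem_center_iff.1 hzc ⟨g, hgP1⟩))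
  have hP1t : P1 ≤ cen t := sup_le hS't (by rw [Subgroup.zpowers_le]; exact hgt)
  obtain ⟨c, hc⟩ := (IsPGroup.iff_card).1 hP1p
  have h1 : l ^ c ∣ Nat.card ↥(cen t) := by
    rw [← hc]; exact Subgroup.card_dvd_of_le hP1t
  have h2 : c ≤ (Nat.card ↥(cen t)).factorization l :=
    (hl.out.pow_dvd_iff_le_factorization Nat.card_pos.ne').1 h1
  have h3 : S' = P1 := by
    refine Subgroup.eq_of_le_of_card_ge le_sup_left ?_
    rw [hc, hS'c]
    exact Nat.pow_le_pow_right hl.out.pos h2
  apply hgS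
  rw [h3]
  exact (le_sup_right : zpowers g ≤ P1) (Subgroup.mem_zpowers g)

end

end Cfsg.Agent.H307.Good
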