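import Mathlib

set_option autoImplicit false

/-! # Heads of the set of class sizes -/

namespace Cfsg.Agent.H307.Heads

open Subgroup

/-- the set of indices of centralizers of noncentral elements -/
abbrev idx (G : Type*) [Group G] : Set ℕ :=
  {m : ℕ | ∃ x : G, x ∉ Subgroup.center G ∧ m = (Subgroup.centralizer ({x} : Set G)).index}

/-- the members which no other member divides -/
abbrev heads (G : Type*) [Group G] : Set ℕ :=
  {a : ℕ | a ∈ idx G ∧ ∀ c ∈ idx G, c ∣ a → c = a}

theorem idx_sub {A B : Type*} [Group A] [Group B] (f : A ≃* B) : idx A ⊆ idx B := by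
  rintro m ⟨x, hx, rfl⟩
  refine ⟨f x, ?_, ?_⟩
  · intro h
    apply hx
    rw [mem_center_iff] at h ⊢
    intro g
    apply f.injective
    rw [map_mul, map_mul]
    exact h (f g)
  · have : (Subgroup.centralizer ({x} : Set A)).map f.toMonoidHom = Subgroup.centralizer ({f x} : Set B) := by
      ext b
      rw [mem_map]
      constructor
      · rintro ⟨a, ha, rfl⟩
        rw [mem_centralizer_singleton_iff] at ha ⊢
        change f a * f x = f x * f a
        rw [← map_mul, ha, map_mul]
      · intro hb
        refine ⟨f.symm b, ?_, by simp⟩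
        rw [mem_centralizer_singleton_iff] at hb ⊢
        apply f.injective
        rw [map_mul, map_mul, MulEquiv.apply_symm_apply, hb]
    rw [← this]
    exact (Subgroup.index_map_equiv _ f).symm

theorem idx_congr {A B : Type*} [Group A] [Group B] (f : A ≃* B) : idx A = idx B :=
  Set.Subset.antisymm (idx_sub f) (idx_sub f.symm)

section finite
variable {G : Type*} [Group G] [Finite G]

theorem idx_finite : (idx G).Finite := by
  refine (Set.finite_Iic (Nat.card G)).subset ?_
  rintro m ⟨x, -, rfl⟩
  exact Nat.le_of_dvd Nat.card_pos (Subgroup.index_dvd_card _)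

theorem heads_subset : heads G ⊆ idx G := fun _ h => h.1

theorem pos_of_mem {a : ℕ} (h : a ∈ idx G) : 0 < a := by
  obtain ⟨x, -, rfl⟩ := h
  exact Nat.pos_of_ne_zero Subgroup.index_ne_zero_of_finite

theorem ne_one_of_mem {a : ℕ} (h : a ∈ idx G) : a ≠ 1 := by
  obtain ⟨x, hx, rfl⟩ := h
  intro h1
  apply hx
  have := Subgroup.index_eq_one.1 h1
  rw [mem_center_iff]
  intro g
  have hg : g ∈ Subgroup.centralizer ({x} : Set G) := by rw [this]; exact mem_top g
  exact mem_centralizer_singleton_iff.1 hg

theorem exists_head {b : ℕ} (h : b ∈ idx G) : ∃ a ∈ heads G, a ∣ b := by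
  induction b using Nat.strong_induction_on with
  | _ b ih =>
    by_cases hb : b ∈ heads G
    · exact ⟨b, hb, dvd_rfl⟩
    · have : ∃ c ∈ idx G, c ∣ b ∧ c ≠ b := by
        by_contra hcon
        apply hb
        refine ⟨h, fun c hc hcb => ?_⟩
        by_contra hne
        exact hcon ⟨c, hc, hcb, hne⟩
      obtain ⟨c, hc, hcb, hne⟩ := this
      have hlt : c < b := lt_of_le_of_ne (Nat.le_of_dvd (pos_of_mem h) hcb) hne
      obtain ⟨a, ha, hac⟩ := ih c hlt hc
      exact ⟨a, ha, hac.trans hcb⟩

/-- no prime divides all noncentral class sizes, if the centre is trivial -/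
theorem not_forall_dvd [Nontrivial G] (hc : Subgroup.center G = ⊥) {p : ℕ} (hp : p.Prime)
    (h : ∀ a ∈ idx G, p ∣ a) : False := by
  classical
  have hpG : p ∣ Nat.card G := by
    obtain ⟨x, hx⟩ := exists_ne (1 : G)
    have hx' : x ∉ Subgroup.center G := by rw [hc]; exact fun h => hx (mem_bot.1 h)
    exact (h _ ⟨x, hx', rfl⟩).trans (Subgroup.index_dvd_card _)
  letI : Fintype G := Fintype.ofFinite G
  haveI : Fact p.Prime := ⟨hp⟩
  have h1 := Group.nat_card_center_add_sum_card_noncenter_eq_card G
  have h2 : p ∣ ∑ᶠ x ∈ ConjClasses.noncenter G, Nat.card x.carrier := by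
    refine finsum_mem_induction (fun n => p ∣ n) (dvd_zero p) (fun _ _ => dvd_add) ?_
    intro x hx
    induction x using Quotient.inductionOn with
    | _ g =>
      change ConjClasses.mk g ∈ ConjClasses.noncenter G at hx
      change p ∣ Nat.card (ConjClasses.mk g).carrier
      have hg : g ∉ Subgroup.center G := by
        intro hg
        have hx2 : (ConjClasses.mk g).carrier.Nontrivial := hx
        obtain ⟨a, ha, b, hb, hab⟩ := hx2
        rw [ConjClasses.mem_carrier_iff_mk_eq, ConjClasses.mk_eq_mk_iff_isConj] at ha hb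
        obtain ⟨c, hc'⟩ := isConj_iff.1 ha.symm
        obtain ⟨d, hd⟩ := isConj_iff.1 hb.symm
        apply hab
        rw [← hc', ← hd, mem_center_iff.1 hg c, mem_center_iff.1 hg d, mul_inv_cancel_right,
          mul_inv_cancel_right]
      have h3 := h _ ⟨g, hg, rfl⟩
      have h4 : Nat.card (ConjClasses.mk g).carrier = (Subgroup.centralizer ({g} : Set G)).index := by
        rw [← ConjAct.orbit_eq_carrier_conjClasses, ← Subgroup.index_comap_of_surjective
          (Subgroup.centralizer ({g} : Set G)) (f := (ConjAct.ofConjAct : ConjAct G ≃* G).toMonoidHom)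
          (ConjAct.ofConjAct : ConjAct G ≃* G).surjective]
        rw [Nat.card_coe_set_eq, ← MulAction.index_stabilizer]
        congr 1
        ext a
        rw [MulAction.mem_stabilizer_iff, ConjAct.smul_def, mem_comap, mem_centralizer_singleton_iff,
          mul_inv_eq_iff_eq_mul]
        rfl
      rw [h4]
      exact h3
  rw [hc] at h1
  have h5 : Nat.card (⊥ : Subgroup G) = 1 := Subgroup.card_bot
  rw [h5] at h1
  have h6 : p ∣ 1 := (Nat.dvd_add_left h2).1 (h1 ▸ hpG)
  exact hp.one_lt.ne' (Nat.dvd_one.1 h6)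

end finite

section simple
variable {G : Type*} [Group G] [Finite G]

theorem center_eq_bot [IsSimpleGroup G] (hG : ¬ IsMulCommutative G) : Subgroup.center G = ⊥ := by
  rcases IsSimpleGroup.eq_bot_or_eq_top_of_normal (Subgroup.center G) inferInstance with h | h
  · exact h
  · exfalso
    apply hG
    refine ⟨⟨fun a b => ?_⟩⟩
    have : b ∈ Subgroup.center G := by rw [h]; exact mem_top b
    exact mem_center_iff.1 this a

theorem two_le_heads [IsSimpleGroup G] (hG : ¬ IsMulCommutative G) : 2 ≤ Set.ncard (heads G) := by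
  by_contra hlt
  have hle : Set.ncard (heads G) ≤ 1 := by omega
  have hfin : (heads G).Finite := idx_finite.subset heads_subset
  have hs := (Set.ncard_le_one hfin).1 hle
  have hc := center_eq_bot hG
  obtain ⟨x, hx⟩ := exists_ne (1 : G)
  have hx' : x ∉ Subgroup.center G := by rw [hc]; exact fun h => hx (mem_bot.1 h)
  obtain ⟨a, ha, -⟩ := exists_head (G := G) ⟨x, hx', rfl⟩
  obtain ⟨p, hp, hpa⟩ := Nat.exists_prime_and_dvd (ne_one_of_mem ha.1)
  refine not_forall_dvd hc hp fun b hb => ?_
  obtain ⟨a', ha', hab⟩ := exists_head hb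
  rw [hs a' ha' a ha] at hab
  exact hpa.trans hab

theorem three_le_heads [IsSimpleGroup G] (hG : ¬ IsMulCommutative G)
    (hcop : ∀ x y : G, x ≠ 1 → y ≠ 1 →
      ¬ ((Subgroup.centralizer ({x} : Set G)).index).Coprime (Subgroup.centralizer ({y} : Set G)).index) :
    3 ≤ Set.ncard (heads G) := by
  by_contra hlt
  have h2 := two_le_heads hG
  have hle : Set.ncard (heads G) = 2 := by omega
  obtain ⟨a, b, hab, hs⟩ := Set.ncard_eq_two.1 hle
  have hc := center_eq_bot hG
  have ha : a ∈ heads G := by rw [hs]; exact Set.mem_insert _ _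
  have hb : b ∈ heads G := by rw [hs]; exact Set.mem_insert_of_mem _ rfl
  obtain ⟨x, hx, rfl⟩ := ha.1
  obtain ⟨y, hy, rfl⟩ := hb.1
  have h3 := hcop x y (fun h => hx (h ▸ one_mem _)) (fun h => hy (h ▸ one_mem _))
  obtain ⟨p, hp, hpa, hpb⟩ := Nat.Prime.not_coprime_iff_dvd.1 h3
  refine not_forall_dvd hc hp fun c hc' => ?_
  obtain ⟨a', ha', hac⟩ := exists_head hc'
  rw [hs] at ha'
  rcases ha' with h | h
  · rw [h] at hac
    exact hpa.trans hac
  · rw [Set.mem_singleton_iff] at h
    rw [h] at hac
    exact hpb.trans hac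

/-- at most one index is not a head -/
theorem good_of_heads (hc : Subgroup.center G = ⊥) (h : Set.ncard (idx G) ≤ Set.ncard (heads G) + 1) :
    ∃ m, ∀ x y : G, y ≠ 1 → Subgroup.centralizer ({x} : Set G) < Subgroup.centralizer ({y} : Set G) →
      Nat.card ↥(Subgroup.centralizer ({x} : Set G)) = m := by
  have h1 : (idx G \ heads G).ncard ≤ 1 := by
    have := Set.ncard_sdiff_add_ncard_of_subset (heads_subset (G := G)) idx_finite
    omega
  have hs := (Set.ncard_le_one (idx_finite.subset Set.sdiff_subset)).1 h1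
  have key : ∀ x y : G, y ≠ 1 → Subgroup.centralizer ({x} : Set G) < Subgroup.centralizer ({y} : Set G) →
      (Subgroup.centralizer ({x} : Set G)).index ∈ idx G \ heads G := by
    intro x y hy hlt
    have hx : x ∉ Subgroup.center G := by
      intro hx
      apply hlt.not_ge
      intro g _
      exact mem_centralizer_singleton_iff.2 (mem_center_iff.1 hx g)
    have hyc : y ∉ Subgroup.center G := by rw [hc]; exact fun h => hy (mem_bot.1 h)
    refine ⟨⟨x, hx, rfl⟩, fun hh => ?_⟩
    have h2 := hh.2 _ ⟨y, hyc, rfl⟩ (Subgroup.index_dvd_of_le hlt.le)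
    have h4 := Subgroup.card_mul_index (Subgroup.centralizer ({x} : Set G))
    have h5 := Subgroup.card_mul_index (Subgroup.centralizer ({y} : Set G))
    rw [h2, ← h4] at h5
    have h6 := Nat.eq_of_mul_eq_mul_right (Nat.pos_of_ne_zero Subgroup.index_ne_zero_of_finite) h5
    exact hlt.ne (Subgroup.eq_of_le_of_card_ge hlt.le h6.le)
  by_cases hex : ∃ c, c ∈ idx G \ heads G
  · obtain ⟨c, hcc⟩ := hex
    refine ⟨Nat.card G / c, fun x y hy hlt => ?_⟩
    have h2 := hs _ (key x y hy hlt) c hcc
    rw [← h2, ← Subgroup.card_mul_index (Subgroup.centralizer ({x} : Set G)),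
      Nat.mul_div_cancel _ (Nat.pos_of_ne_zero Subgroup.index_ne_zero_of_finite)]
  · exact ⟨0, fun x y hy hlt => absurd ⟨_, key x y hy hlt⟩ hex⟩

theorem good_of_three [IsSimpleGroup G] (hG : ¬ IsMulCommutative G) (h : Set.ncard (idx G) = 3) :
    ∃ m, ∀ x y : G, y ≠ 1 → Subgroup.centralizer ({x} : Set G) < Subgroup.centralizer ({y} : Set G) →
      Nat.card ↥(Subgroup.centralizer ({x} : Set G)) = m :=
  good_of_heads (center_eq_bot hG) (by have := two_le_heads hG; omega)

theorem good_of_four [IsSimpleGroup G] (hG : ¬ IsMulCommutative G)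
    (hcop : ∀ x y : G, x ≠ 1 → y ≠ 1 →
      ¬ ((Subgroup.centralizer ({x} : Set G)).index).Coprime (Subgroup.centralizer ({y} : Set G)).index)
    (h : Set.ncard (idx G) = 4) :
    ∃ m, ∀ x y : G, y ≠ 1 → Subgroup.centralizer ({x} : Set G) < Subgroup.centralizer ({y} : Set G) →
      Nat.card ↥(Subgroup.centralizer ({x} : Set G)) = m :=
  good_of_heads (center_eq_bot hG) (by have := three_le_heads hG hcop; omega)

theorem good_of_five [IsSimpleGroup G] (hG : ¬ IsMulCommutative G)
    (hcop : ∀ x y : G, x ≠ 1 → y ≠ 1 →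
      ¬ ((Subgroup.centralizer ({x} : Set G)).index).Coprime (Subgroup.centralizer ({y} : Set G)).index)
    (h : Set.ncard (idx G) = 5) (h3 : Set.ncard (heads G) ≠ 3) :
    ∃ m, ∀ x y : G, y ≠ 1 → Subgroup.centralizer ({x} : Set G) < Subgroup.centralizer ({y} : Set G) →
      Nat.card ↥(Subgroup.centralizer ({x} : Set G)) = m :=
  good_of_heads (center_eq_bot hG) (by have := three_le_heads hG hcop; omega)

end simple

end Cfsg.Agent.H307.Heads
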